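import Cfsg.Agent.H168.HT.Reg
import Cfsg.Agent.H920.HT.RegDefs
import Cfsg.Agent.H637.HT.Roots

/-!
# S4933, box H2, piece (D): the number of regular elements (helper168)

`card_reg` : `(p ^ a - 1) * (p ^ a - 1 - 2 c) ≤ |RegE P|`.
-/

set_option autoImplicit false
set_option linter.unusedSectionVars false

namespace Cfsg.Agent.H168.HT

open Polynomial Module

universe u v

variable {K : Type u} [Field K] {V : Type v} [AddCommGroup V] [Module K V] [FiniteDimensional K V]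

/-- an irreducible block is cyclic under the polynomials of `x` -/
theorem exists_gen {x : Module.End K V} {U : Submodule K V} (hi : ∀ v ∈ U, x v ∈ U)
    (hirr : ∀ X ≤ U, (∀ u ∈ X, x u ∈ X) → X = ⊥ ∨ X = U) {v : V} (hv : v ∈ U) (hv0 : v ≠ 0) {w : V} (hw : w ∈ U) :
    ∃ f : K[X], w = aeval x f v := by
  let X' : Submodule K V :=
    { carrier := {u | ∃ f : K[X], u = aeval x f v}
      add_mem' := by
        rintro a b ⟨f, rfl⟩ ⟨g, rfl⟩
        exact ⟨f + g, by rw [map_add, LinearMap.add_apply]⟩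
      zero_mem' := ⟨0, by rw [map_zero, LinearMap.zero_apply]⟩
      smul_mem' := by
        rintro c a ⟨f, rfl⟩
        exact ⟨c • f, by rw [map_smul, LinearMap.smul_apply]⟩ }
  have hU : X' = U := by
    rcases hirr X' (by rintro u ⟨f, rfl⟩; exact aeval_mem hi f hv) (by
      rintro u ⟨f, rfl⟩
      exact ⟨X * f, by rw [map_mul, aeval_X, Module.End.mul_apply]⟩) with h | h
    · exfalso
      apply hv0
      have h1 : v ∈ X' := ⟨1, by rw [map_one, Module.End.one_apply]⟩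
      rw [h] at h1
      exact h1
    · exact h
  rw [← hU] at hw
  exact hw

theorem aeval_aeval_comm (x : Module.End K V) (f g : K[X]) (v : V) : aeval x f (aeval x g v) = aeval x g (aeval x f v) := by
  rw [← Module.End.mul_apply, ← Module.End.mul_apply, ← map_mul, ← map_mul, mul_comm]

/-- an endomorphism commuting with `x` is a polynomial in `x` on an irreducible block -/
theorem exists_poly_on {x : Module.End K V} {U : Submodule K V} (hi : ∀ v ∈ U, x v ∈ U)
    (hirr : ∀ X ≤ U, (∀ u ∈ X, x u ∈ X) → X = ⊥ ∨ X = U) {y : Module.End K V} (hy : y * x = x * y)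
    (hyU : ∀ v ∈ U, y v ∈ U) : ∃ g : K[X], ∀ v ∈ U, y v = aeval x g v := by
  by_cases h0 : ∀ v ∈ U, v = 0
  · exact ⟨0, fun v hv => by rw [h0 v hv, map_zero, map_zero]⟩
  · push Not at h0
    obtain ⟨v, hv, hv0⟩ := h0
    obtain ⟨g, hg⟩ := exists_gen hi hirr hv hv0 (hyU v hv)
    refine ⟨g, fun w hw => ?_⟩
    obtain ⟨c, rfl⟩ := exists_gen hi hirr hv hv0 hw
    rw [← aeval_comm hy, hg, aeval_aeval_comm]

/-- a polynomial of `x` which is injective on an irreducible block is invertible there -/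
theorem exists_inv_on {x : Module.End K V} {U : Submodule K V} (hi : ∀ v ∈ U, x v ∈ U)
    (hirr : ∀ X ≤ U, (∀ u ∈ X, x u ∈ X) → X = ⊥ ∨ X = U) {h : K[X]} (hh : ∀ v ∈ U, aeval x h v = 0 → v = 0) :
    ∃ g : K[X], ∀ v ∈ U, aeval x (g * h) v = v := by
  by_cases h0 : ∀ v ∈ U, v = 0
  · exact ⟨0, fun v hv => by rw [h0 v hv, map_zero]⟩
  · push Not at h0
    obtain ⟨v, hv, hv0⟩ := h0
    have h1 : aeval x h v ≠ 0 := fun h2 => hv0 (hh v hv h2)
    obtain ⟨g, hg⟩ := exists_gen hi hirr (aeval_mem hi h hv) h1 hv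
    refine ⟨g, fun w hw => ?_⟩
    obtain ⟨c, rfl⟩ := exists_gen hi hirr hv hv0 hw
    rw [aeval_aeval_comm, map_mul, Module.End.mul_apply, ← hg]

/-- **regular elements generate**: an endomorphism commuting with the regular element `x`, which preserves `V₁` and `V₂` and is
trivial on `V₀`, is a polynomial in `x` -/
theorem Reg.exists_poly {x : V ≃ₗ[K] V} {V₀ V₁ V₂ : Submodule K V} (h : Reg x V₀ V₁ V₂) (htop : V₀ ⊔ V₁ ⊔ V₂ = ⊤)
    (i1 : ∀ v ∈ V₁, x v = v → v = 0) (i2 : ∀ v ∈ V₂, x v = v → v = 0)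
    (j1 : ∀ U ≤ V₁, (∀ u ∈ U, x u ∈ U) → U = ⊥ ∨ U = V₁) (j2 : ∀ U ≤ V₂, (∀ u ∈ U, x u ∈ U) → U = ⊥ ∨ U = V₂)
    {y : Module.End K V} (hy : y * (x : Module.End K V) = (x : Module.End K V) * y) (hy0 : ∀ v ∈ V₀, y v = v)
    (hy1 : ∀ v ∈ V₁, y v ∈ V₁) (hy2 : ∀ v ∈ V₂, y v ∈ V₂) : ∃ f : K[X], y = aeval (x : Module.End K V) f := by
  set T : Module.End K V := (x : Module.End K V) with hT
  have hTi1 : ∀ v ∈ V₁, T v ∈ V₁ := h.inv1
  have hTi2 : ∀ v ∈ V₂, T v ∈ V₂ := h.inv2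
  obtain ⟨f, hf1, hf2⟩ := h.sep
  have hX1 : ∀ v, aeval T (X - 1 : K[X]) v = x v - v := by
    intro v
    rw [map_sub, aeval_X, map_one, LinearMap.sub_apply, Module.End.one_apply]
    rfl
  obtain ⟨u, hu⟩ := exists_inv_on (x := T) hTi2 j2 (h := f * (X - 1)) (by
    intro v hv h0
    rw [map_mul, Module.End.mul_apply, hX1] at h0
    exact i2 v hv (sub_eq_zero.1 (hf2 _ (V₂.sub_mem (h.inv2 v hv) hv) h0)))
  obtain ⟨w, hw⟩ := exists_inv_on (x := T) hTi1 j1 (h := X - 1) (by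
    intro v hv h0
    rw [hX1] at h0
    exact i1 v hv (sub_eq_zero.1 h0))
  obtain ⟨g1, hg1⟩ := exists_poly_on (x := T) hTi1 j1 hy hy1
  obtain ⟨g2, hg2⟩ := exists_poly_on (x := T) hTi2 j2 hy hy2
  set e2 : K[X] := u * (f * (X - 1)) with he2
  set e1 : K[X] := (1 - e2) * (w * (X - 1)) with he1
  -- the values on the blocks
  have a2 : ∀ v ∈ V₂, aeval T e2 v = v := hu
  have b2 : ∀ v ∈ V₁, aeval T e2 v = 0 := by
    intro v hv
    rw [he2, map_mul, Module.End.mul_apply, map_mul, Module.End.mul_apply, hX1, hf1 _ (V₁.sub_mem (h.inv1 v hv) hv), map_zero]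
  have c2 : ∀ v ∈ V₀, aeval T e2 v = 0 := by
    intro v hv
    rw [he2, map_mul, Module.End.mul_apply, map_mul, Module.End.mul_apply, hX1, h.fix v hv, sub_self, map_zero, map_zero]
  have a1 : ∀ v ∈ V₁, aeval T e1 v = v := by
    intro v hv
    rw [he1, map_mul, Module.End.mul_apply, hw v hv, map_sub, LinearMap.sub_apply, b2 v hv, sub_zero, map_one,
      Module.End.one_apply]
  have b1 : ∀ v ∈ V₂, aeval T e1 v = 0 := by
    intro v hv
    rw [he1, mul_comm, map_mul, Module.End.mul_apply, map_sub, LinearMap.sub_apply, a2 v hv, map_one,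
      Module.End.one_apply, sub_self, map_zero]
  have c1 : ∀ v ∈ V₀, aeval T e1 v = 0 := by
    intro v hv
    rw [he1, map_mul, Module.End.mul_apply, map_mul, Module.End.mul_apply, hX1, h.fix v hv, sub_self, map_zero, map_zero]
  refine ⟨g1 * e1 + g2 * e2 + (1 - e1 - e2), ?_⟩
  have hv : ∀ v, aeval T (g1 * e1 + g2 * e2 + (1 - e1 - e2)) v = aeval T g1 (aeval T e1 v) + aeval T g2 (aeval T e2 v) +
      (v - aeval T e1 v - aeval T e2 v) := by
    intro v
    simp only [map_add, map_mul, map_sub, map_one, LinearMap.add_apply, LinearMap.sub_apply, Module.End.mul_apply,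
      Module.End.one_apply]
  apply LinearMap.ext
  intro v
  obtain ⟨v₀, h₀, v₁, h₁, v₂, h₂, rfl⟩ := exists_dec htop v
  rw [map_add, map_add, map_add, map_add, hv v₀, hv v₁, hv v₂, a2 v₂ h₂, b2 v₁ h₁, c2 v₀ h₀, a1 v₁ h₁, b1 v₂ h₂, c1 v₀ h₀,
    hg1 v₁ h₁, hg2 v₂ h₂, hy0 v₀ h₀]
  simp only [map_zero, sub_zero, add_zero, zero_add, sub_self]

theorem aeval_congr_on {S T : Module.End K V} {U : Submodule K V} (hS : ∀ u ∈ U, S u ∈ U) (h : ∀ u ∈ U, T u = S u) (f : K[X])
    {u : V} (hu : u ∈ U) : aeval T f u = aeval S f u := by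
  have h1 : ∀ n : ℕ, ∀ u ∈ U, (T ^ n) u = (S ^ n) u := by
    intro n
    induction n with
    | zero => intro u _; rfl
    | succ n ih =>
      intro u hu
      rw [pow_succ, pow_succ, Module.End.mul_apply, Module.End.mul_apply, h u hu, ih _ (hS u hu)]
  induction f using Polynomial.induction_on' with
  | add p q hp hq => rw [map_add, map_add, LinearMap.add_apply, LinearMap.add_apply, hp, hq]
  | monomial n a =>
    rw [aeval_monomial, aeval_monomial, Module.End.mul_apply, Module.End.mul_apply, h1 n u hu]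

theorem aeval_restrict {S : Module.End K V} {U : Submodule K V} (hS : ∀ u ∈ U, S u ∈ U) (f : K[X]) (u : U) :
    ((aeval (S.restrict hS) f u : U) : V) = aeval S f (u : V) := by
  have h1 : ∀ n : ℕ, ∀ u : U, (((S.restrict hS) ^ n) u : V) = (S ^ n) (u : V) := by
    intro n
    induction n with
    | zero => intro u; rfl
    | succ n ih =>
      intro u
      rw [pow_succ, pow_succ, Module.End.mul_apply, Module.End.mul_apply, ih]
      rfl
  induction f using Polynomial.induction_on' with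
  | add p q hp hq => rw [map_add, map_add, LinearMap.add_apply, LinearMap.add_apply, Submodule.coe_add, hp, hq]
  | monomial n a =>
    rw [aeval_monomial, aeval_monomial, Module.End.mul_apply, Module.End.mul_apply, ← h1 n u]
    rfl

open Cfsg.Agent.H324.AP Cfsg.Agent.H920.HT

section count

variable [Finite K] [Finite V] {τ : K →+* K} {B : V → V → K} {G P : Subgroup (V ≃ₗ[K] V)} {h : SplF τ B G} {p a c : ℕ}
  [hp : Fact p.Prime] {D : Fin 2 → Submodule K V}

theorem twoB_top (hpF : (p : K) ≠ 0) (H : TwoB p a c h P D) : fixP P ⊔ D 0 ⊔ D 1 = ⊤ := by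
  have h1 := (h.isCompl_perp (nd_fix hpF h H.syl.le H.syl.isP)).sup_eq_top
  have h2 : (⨆ i, D i) ≤ D 0 ⊔ D 1 := by
    refine iSup_le fun i => ?_
    fin_cases i
    · exact le_sup_left
    · exact le_sup_right
  rw [← H.frm.sup] at h1
  rw [eq_top_iff, ← h1, sup_assoc]
  exact sup_le_sup_left h2 _

theorem twoB_eq_one (H : TwoB p a c h P D) {i : Fin 2} {y : V ≃ₗ[K] V} (hy : y ∈ triv P (h.perp (D i)))
    (hv : ∀ v ∈ D i, y v = v) : y = 1 :=
  equiv_ext_compl (H.dec.compl i) hv hy.2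

theorem twoB_nofix (H : TwoB p a c h P D) {i : Fin 2} {y : V ≃ₗ[K] V} (hy : y ∈ triv P (h.perp (D i))) (hy1 : y ≠ 1) {v : V}
    (hv : v ∈ D i) (hyv : y v = v) : v = 0 := by
  let X' : Submodule K V :=
    { carrier := {u | u ∈ D i ∧ y u = u}
      add_mem' := fun {a b} ha hb => ⟨(D i).add_mem ha.1 hb.1, by rw [map_add, ha.2, hb.2]⟩
      zero_mem' := ⟨(D i).zero_mem, map_zero _⟩
      smul_mem' := fun c a ha => ⟨(D i).smul_mem c ha.1, by rw [map_smul, ha.2]⟩ }
  rcases H.irr i y hy hy1 X' (fun u hu => hu.1) (fun u hu => by rw [hu.2]; exact hu) with h1 | h1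
  · have h2 : v ∈ X' := ⟨hv, hyv⟩
    rw [h1] at h2
    exact h2
  · exfalso
    refine hy1 (twoB_eq_one H hy fun u hu => ?_)
    rw [← h1] at hu
    exact hu.2

/-- at most `2 c` elements of `Q_1` are zeros on `D 1` of a given polynomial of degree at most `2 c` -/
theorem card_bad (H : TwoB p a c h P D) (hc : 0 < c) (ha : 0 < a) {A : K[X]} (hA : A ≠ 0) (hd : A.natDegree ≤ 2 * c) :
    {y : V ≃ₗ[K] V | y ∈ triv P (h.perp (D 1)) ∧ ∀ v ∈ D 1, aeval (toE y) A v = 0}.ncard ≤ 2 * c := by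
  classical
  have hnt : Nontrivial (D 1) := by
    apply Module.nontrivial_of_finrank_pos (R := K)
    rw [H.dim 1]
    omega
  have hinv : ∀ y ∈ triv P (h.perp (D 1)), ∀ v ∈ D 1, toE y v ∈ D 1 := fun y hy v hv => H.dec.inv 1 y hy.1 v hv
  let r : triv P (h.perp (D 1)) → Module.End K (D 1) := fun y => (toE (y : V ≃ₗ[K] V)).restrict (hinv y y.2)
  obtain ⟨z, hz, hz1⟩ : ∃ z ∈ triv P (h.perp (D 1)), z ≠ 1 := by
    by_contra hcon
    push Not at hcon
    have h1 : triv P (h.perp (D 1)) = ⊥ := by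
      rw [eq_bot_iff]
      intro z hz
      exact hcon z hz
    have h2 := H.card 1
    rw [h1, Subgroup.card_bot] at h2
    have h3 : 1 < p ^ a := Nat.one_lt_pow ha.ne' hp.out.one_lt
    omega
  obtain ⟨hf, hle⟩ := Cfsg.Agent.H637.HT.card_roots_le (Set.range r) (by
    rintro _ ⟨y, rfl⟩ _ ⟨w, rfl⟩
    ext v
    have h1 := LinearEquiv.congr_fun (H.ab y y.2.1 w w.2.1) (v : V)
    exact h1) (by
    intro U hU
    have h1 := H.irr 1 z hz hz1 (U.map (D 1).subtype) (by rintro _ ⟨u, -, rfl⟩; exact u.2) (by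
      rintro _ ⟨u, hu, rfl⟩
      exact ⟨r ⟨z, hz⟩ u, hU _ ⟨⟨z, hz⟩, rfl⟩ u hu, rfl⟩)
    rcases h1 with h1 | h1
    · left
      rw [eq_bot_iff]
      intro u hu
      have h2 : (u : V) ∈ U.map (D 1).subtype := ⟨u, hu, rfl⟩
      rw [h1, Submodule.mem_bot] at h2
      exact Subtype.ext h2
    · right
      rw [eq_top_iff]
      rintro ⟨v, hv⟩ -
      rw [← h1] at hv
      obtain ⟨u, hu, rfl⟩ := hv
      exact hu) A hA
  refine le_trans ?_ (hle.trans hd)
  have hfin : Finite (V ≃ₗ[K] V) := Finite.of_injective (fun g : V ≃ₗ[K] V => (g : V → V)) DFunLike.coe_injective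
  refine Set.ncard_le_ncard_of_injOn (fun y => if hy : y ∈ triv P (h.perp (D 1)) then r ⟨y, hy⟩ else 0) ?_ ?_ hf
  · rintro y ⟨hy, hy'⟩
    rw [dif_pos hy]
    refine ⟨⟨⟨y, hy⟩, rfl⟩, ?_⟩
    change aeval (r ⟨y, hy⟩) A = 0
    ext v
    rw [aeval_restrict]
    exact hy' v v.2
  · rintro y ⟨hy, -⟩ w ⟨hw, -⟩ hyw
    simp only [dif_pos hy, dif_pos hw] at hyw
    refine equiv_ext_compl (H.dec.compl 1) (fun v hv => ?_) fun v hv => by rw [hy.2 v hv, hw.2 v hv]
    exact congrArg Subtype.val (LinearMap.congr_fun hyw ⟨v, hv⟩)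

/-- products of elements with a separating polynomial are regular -/
theorem regE_mul (hpF : (p : K) ≠ 0) (H : TwoB p a c h P D) {y z : V ≃ₗ[K] V} (hy : y ∈ triv P (h.perp (D 0)))
    (hz : z ∈ triv P (h.perp (D 1))) (hy1 : y ≠ 1) (hz1 : z ≠ 1) {A : K[X]} (hA : ∀ v ∈ D 0, aeval (toE y) A v = 0)
    (hA' : ∃ v ∈ D 1, aeval (toE z) A v ≠ 0) : y * z ∈ RegE P := by
  have hx0 : ∀ v ∈ D 0, toE (y * z) v = toE y v := by
    intro v hv
    change y (z v) = y v
    rw [hz.2 v (H.dec.le 1 0 (by decide) hv)]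
  have hx1 : ∀ v ∈ D 1, toE (y * z) v = toE z v := by
    intro v hv
    change y (z v) = z v
    exact hy.2 _ (H.dec.le 0 1 (by decide) (H.dec.inv 1 z hz.1 v hv))
  have i0 : ∀ v ∈ D 0, (y * z) v = v → v = 0 := fun v hv h0 => twoB_nofix H hy hy1 hv ((hx0 v hv).symm.trans h0)
  have i1 : ∀ v ∈ D 1, (y * z) v = v → v = 0 := fun v hv h0 => twoB_nofix H hz hz1 hv ((hx1 v hv).symm.trans h0)
  have hP : y * z ∈ P := P.mul_mem hy.1 hz.1
  have j0 : ∀ U ≤ D 0, (∀ u ∈ U, (y * z) u ∈ U) → U = ⊥ ∨ U = D 0 := fun U hU hUi =>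
    H.irr 0 y hy hy1 U hU fun u hu => by
      have h1 := hUi u hu
      rwa [show (y * z) u = y u from hx0 u (hU hu)] at h1
  have j1 : ∀ U ≤ D 1, (∀ u ∈ U, (y * z) u ∈ U) → U = ⊥ ∨ U = D 1 := fun U hU hUi =>
    H.irr 1 z hz hz1 U hU fun u hu => by
      have h1 := hUi u hu
      rwa [show (y * z) u = z u from hx1 u (hU hu)] at h1
  have hinj : ∀ v ∈ D 1, aeval (toE z) A v = 0 → v = 0 := by
    have hzi : ∀ v ∈ D 1, toE z v ∈ D 1 := fun v hv => H.dec.inv 1 z hz.1 v hv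
    intro v hv h0
    rcases H.irr 1 z hz hz1 (D 1 ⊓ LinearMap.ker (aeval (toE z) A)) inf_le_left (by
      rintro u ⟨hu, hu'⟩
      refine ⟨hzi u hu, ?_⟩
      have h1 : aeval (toE z) A (toE z u) = toE z (aeval (toE z) A u) := aeval_comm rfl A u
      rw [SetLike.mem_coe, LinearMap.mem_ker] at hu' ⊢
      rw [show (z u : V) = toE z u from rfl, h1, hu', map_zero]) with h1 | h1
    · have h2 : v ∈ D 1 ⊓ LinearMap.ker (aeval (toE z) A) := ⟨hv, h0⟩
      rw [h1] at h2
      exact h2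
    · exfalso
      obtain ⟨w, hw, hw'⟩ := hA'
      rw [← h1] at hw
      exact hw' hw.2
  have hne : ∀ i : Fin 2, D i ≠ ⊥ → ∃ v ∈ D i, v ≠ 0 := fun i hi => Submodule.exists_mem_ne_zero_of_ne_bot hi
  have hreg : Reg (y * z) (fixP P) (D 0) (D 1) :=
    { fix := fun v hv => hv _ hP
      inv1 := fun v hv => H.dec.inv 0 _ hP v hv
      inv2 := fun v hv => H.dec.inv 1 _ hP v hv
      ne1 := by
        obtain ⟨v, hv, hv0⟩ := hne 0 (H.frm.minS 0).ne
        exact ⟨v, hv, fun h0 => hv0 (i0 v hv h0)⟩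
      ne2 := by
        obtain ⟨v, hv, hv0⟩ := hne 1 (H.frm.minS 1).ne
        exact ⟨v, hv, fun h0 => hv0 (i1 v hv h0)⟩
      sep := ⟨A, fun v hv => by
          rw [show (((y * z : V ≃ₗ[K] V) : V →ₗ[K] V) : Module.End K V) = toE (y * z) from rfl,
            aeval_congr_on (S := toE y) (fun u hu => H.dec.inv 0 y hy.1 u hu) hx0 A hv]
          exact hA v hv, fun v hv h0 => by
          rw [show (((y * z : V ≃ₗ[K] V) : V →ₗ[K] V) : Module.End K V) = toE (y * z) from rfl,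
            aeval_congr_on (S := toE z) (fun u hu => H.dec.inv 1 z hz.1 u hu) hx1 A hv] at h0
          exact hinj v hv h0⟩ }
  refine ⟨hP, fun w hw => ?_⟩
  refine hreg.exists_poly (twoB_top hpF H) i0 i1 j0 j1 (y := toE w) ?_ (fun v hv => hv w hw)
    (fun v hv => H.dec.inv 0 w hw v hv) (fun v hv => H.dec.inv 1 w hw v hv)
  ext v
  exact LinearEquiv.congr_fun (H.ab w hw _ hP) v

/-- **the number of regular elements** -/
theorem card_reg (hpF : (p : K) ≠ 0) (H : TwoB p a c h P D) (hc : 0 < c) :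
    (p ^ a - 1) * (p ^ a - 1 - 2 * c) ≤ Nat.card (RegE P) := by
  classical
  rcases Nat.eq_zero_or_pos a with rfl | ha
  · simp
  have hfin : Finite (V ≃ₗ[K] V) := Finite.of_injective (fun g : V ≃ₗ[K] V => (g : V → V)) DFunLike.coe_injective
  have : Fintype (V ≃ₗ[K] V) := Fintype.ofFinite _
  have hinv : ∀ y ∈ triv P (h.perp (D 0)), ∀ v ∈ D 0, toE y v ∈ D 0 := fun y hy v hv => H.dec.inv 0 y hy.1 v hv
  -- the polynomial of an element of `Q_0`
  have hpol : ∀ y : V ≃ₗ[K] V, ∃ A : K[X], y ∈ triv P (h.perp (D 0)) → A ≠ 0 ∧ A.natDegree ≤ 2 * c ∧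
      ∀ v ∈ D 0, aeval (toE y) A v = 0 := by
    intro y
    by_cases hy : y ∈ triv P (h.perp (D 0))
    · refine ⟨((toE y).restrict (hinv y hy)).charpoly, fun _ => ⟨(LinearMap.charpoly_monic _).ne_zero, ?_, ?_⟩⟩
      · rw [LinearMap.charpoly_natDegree, H.dim 0]
      · intro v hv
        have h1 := LinearMap.congr_fun (LinearMap.aeval_self_charpoly ((toE y).restrict (hinv y hy))) ⟨v, hv⟩
        have h2 := aeval_restrict (hinv y hy) ((toE y).restrict (hinv y hy)).charpoly ⟨v, hv⟩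
        rw [h1] at h2
        exact h2.symm
    · exact ⟨0, fun h1 => absurd h1 hy⟩
  choose A hA using hpol
  let q0 : Finset (V ≃ₗ[K] V) := Finset.univ.filter (· ∈ triv P (h.perp (D 0)))
  let q1 : Finset (V ≃ₗ[K] V) := Finset.univ.filter (· ∈ triv P (h.perp (D 1)))
  have hq : ∀ i, (Finset.univ.filter (· ∈ triv P (h.perp (D i)))).card = p ^ a := by
    intro i
    rw [← H.card i, Nat.card_eq_fintype_card, Fintype.card_subtype]
  let good : (V ≃ₗ[K] V) → Finset (V ≃ₗ[K] V) := fun y => q1.filter fun z => z ≠ 1 ∧ ∃ v ∈ D 1, aeval (toE z) (A y) v ≠ 0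
  have hgood : ∀ y ∈ q0.erase 1, p ^ a - 1 - 2 * c ≤ (good y).card := by
    intro y hy
    have hy0 : y ∈ triv P (h.perp (D 0)) := (Finset.mem_filter.1 (Finset.mem_of_mem_erase hy)).2
    obtain ⟨h1, h2, h3⟩ := hA y hy0
    have h4 := card_bad H hc ha h1 h2
    let bad : Finset (V ≃ₗ[K] V) := q1.filter fun z => ∀ v ∈ D 1, aeval (toE z) (A y) v = 0
    have hbad : bad.card ≤ 2 * c := by
      refine le_trans (le_of_eq ?_) h4
      rw [← Set.ncard_coe_finset]
      congr 1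
      ext z
      simp only [bad, q1, Finset.coe_filter, Finset.mem_filter, Finset.mem_univ, true_and, Set.mem_ofPred_eq]
    have hsub : q1 ⊆ insert 1 (bad ∪ good y) := by
      intro z hz
      rw [Finset.mem_insert, Finset.mem_union]
      by_cases hz1 : z = 1
      · left; exact hz1
      · right
        by_cases hz2 : ∀ v ∈ D 1, aeval (toE z) (A y) v = 0
        · left; exact Finset.mem_filter.2 ⟨hz, hz2⟩
        · right
          push Not at hz2
          exact Finset.mem_filter.2 ⟨hz, hz1, hz2⟩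
    have h5 := (Finset.card_le_card hsub).trans ((Finset.card_insert_le _ _).trans
      (Nat.add_le_add_right (Finset.card_union_le _ _) 1))
    have h6 : q1.card = p ^ a := hq 1
    omega
  let S : Finset (Σ _ : V ≃ₗ[K] V, V ≃ₗ[K] V) := (q0.erase 1).sigma good
  have hS : (p ^ a - 1) * (p ^ a - 1 - 2 * c) ≤ S.card := by
    rw [Finset.card_sigma]
    have h1 : (q0.erase 1).card = p ^ a - 1 := by
      rw [Finset.card_erase_of_mem (Finset.mem_filter.2 ⟨Finset.mem_univ _, Subgroup.one_mem _⟩), hq 0]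
    calc (p ^ a - 1) * (p ^ a - 1 - 2 * c) = ∑ _y ∈ q0.erase 1, (p ^ a - 1 - 2 * c) := by
          rw [Finset.sum_const, smul_eq_mul, h1]
      _ ≤ ∑ y ∈ q0.erase 1, (good y).card := Finset.sum_le_sum fun y hy => hgood y hy
  refine hS.trans ?_
  have hR : Nat.card (RegE P) = (Finset.univ.filter (· ∈ RegE P)).card := by
    rw [Nat.card_eq_fintype_card, Fintype.card_subtype]
  rw [hR]
  refine Finset.card_le_card_of_injOn (fun s => s.1 * s.2) ?_ ?_
  · rintro ⟨y, z⟩ hs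
    obtain ⟨hy, hz⟩ := Finset.mem_sigma.1 hs
    have hy0 : y ∈ triv P (h.perp (D 0)) := (Finset.mem_filter.1 (Finset.mem_of_mem_erase hy)).2
    obtain ⟨hz0, hz1, hz2⟩ := Finset.mem_filter.1 hz
    have hz0' : z ∈ triv P (h.perp (D 1)) := (Finset.mem_filter.1 hz0).2
    exact Finset.mem_filter.2 ⟨Finset.mem_univ _, regE_mul hpF H hy0 hz0' (Finset.ne_of_mem_erase hy) hz1 (hA y hy0).2.2 hz2⟩
  · rintro ⟨y, z⟩ hs ⟨y', z'⟩ hs' hyz
    obtain ⟨hy, hz⟩ := Finset.mem_sigma.1 hs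
    obtain ⟨hy', hz'⟩ := Finset.mem_sigma.1 hs'
    have hy0 : y ∈ triv P (h.perp (D 0)) := (Finset.mem_filter.1 (Finset.mem_of_mem_erase hy)).2
    have hy0' : y' ∈ triv P (h.perp (D 0)) := (Finset.mem_filter.1 (Finset.mem_of_mem_erase hy')).2
    have hz0 : z ∈ triv P (h.perp (D 1)) := (Finset.mem_filter.1 (Finset.mem_filter.1 hz).1).2
    have hz0' : z' ∈ triv P (h.perp (D 1)) := (Finset.mem_filter.1 (Finset.mem_filter.1 hz').1).2
    have hyz' : y * z = y' * z' := hyz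
    have h1 : y = y' := by
      refine equiv_ext_compl (H.dec.compl 0) (fun v hv => ?_) fun v hv => by rw [hy0.2 v hv, hy0'.2 v hv]
      have h2 := LinearEquiv.congr_fun hyz' v
      rw [LinearEquiv.mul_apply, LinearEquiv.mul_apply, hz0.2 v (H.dec.le 1 0 (by decide) hv),
        hz0'.2 v (H.dec.le 1 0 (by decide) hv)] at h2
      exact h2
    subst h1
    have h2 : z = z' := mul_left_cancel hyz'
    subst h2
    rfl

end count

end Cfsg.Agent.H168.HT
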