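import Cfsg.Agent.H477.HC.Form
import Cfsg.Agent.H538.GlCyc

/-!
# S4933, box H2c: regular `p`-elements in a form with two anisotropic blocks (helper168)

`Reg x V₀ V₁ V₂` : `x` is trivial on `V₀`, preserves `V₁` and `V₂`, is not trivial on them, and a polynomial of `x` is zero on `V₁`
and injective on `V₂`. For a `p`-element `x`, `dim V₁ = dim V₂ = e` the order of `|K|` modulo `p`:
* `irr` : `V₁` and `V₂` are irreducible under `x`;
* `Reg.map_mem` : the centralizer of `x` preserves `V₀`, `V₁` and `V₂`;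
* `comm_on` : the centralizer of `x` is commutative on `V₁` and `V₂`;
* `Reg.no_ts` : no totally singular subspace of dimension `e` is invariant under `x s`, `s` a `p`-regular element commuting
  with `x`.
-/

set_option autoImplicit false
set_option linter.unusedSectionVars false

namespace Cfsg.Agent.H168.HT

open Polynomial Module

universe u v

variable {K : Type u} [Field K] {V : Type v} [AddCommGroup V] [Module K V]

/-- regular elements for the decomposition `V₀ + V₁ + V₂` -/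
structure Reg (x : V ≃ₗ[K] V) (V₀ V₁ V₂ : Submodule K V) : Prop where
  fix : ∀ v ∈ V₀, x v = v
  inv1 : ∀ v ∈ V₁, x v ∈ V₁
  inv2 : ∀ v ∈ V₂, x v ∈ V₂
  ne1 : ∃ v ∈ V₁, x v ≠ v
  ne2 : ∃ v ∈ V₂, x v ≠ v
  sep : ∃ f : K[X], (∀ v ∈ V₁, aeval (x : Module.End K V) f v = 0) ∧
    ∀ v ∈ V₂, aeval (x : Module.End K V) f v = 0 → v = 0

/-- a nontrivial `p`-element in dimension `e` is irreducible and has no fixed vectors -/
theorem irr_aux [Finite K] {W : Type v} [AddCommGroup W] [Module K W] [FiniteDimensional K W] {p : ℕ} [hp : Fact p.Prime]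
    (hpF : (p : K) ≠ 0) (hd : finrank K W = orderOf ((Nat.card K : ℕ) : ZMod p)) {T : W →ₗ[K] W} {k : ℕ}
    (hT : T ^ p ^ k = 1) (h1 : T ≠ 1) :
    (∀ v, T v = v → v = 0) ∧ ∀ U : Submodule K W, (∀ u ∈ U, T u ∈ U) → U = ⊥ ∨ U = ⊤ := by
  classical
  have hex : ∃ k, T ^ p ^ k = 1 := ⟨k, hT⟩
  obtain ⟨n, hn, hn'⟩ : ∃ n, T ^ p ^ (n + 1) = 1 ∧ T ^ p ^ n ≠ 1 := by
    have h2 : Nat.find hex ≠ 0 := by
      intro h3
      have h4 := Nat.find_spec hex
      rw [h3, pow_zero, pow_one] at h4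
      exact h1 h4
    refine ⟨Nat.find hex - 1, ?_, fun h3 => ?_⟩
    · rw [Nat.sub_add_cancel (Nat.one_le_iff_ne_zero.2 h2)]
      exact Nat.find_spec hex
    · exact Nat.find_min hex (Nat.sub_lt (Nat.pos_of_ne_zero h2) one_pos) h3
  set S := T ^ p ^ n with hS
  have hSp : S ^ p = 1 := by rw [hS, ← pow_mul, ← pow_succ, hn]
  have hrk := Cfsg.Agent.H538.GlCyc.le_finrank_range hpF hSp hn'
  have htop : LinearMap.range (S - 1) = ⊤ := by
    apply Submodule.eq_top_of_finrank_eq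
    exact le_antisymm (Submodule.finrank_le _) (hd ▸ hrk)
  have hinj : Function.Injective (S - 1 : W →ₗ[K] W) :=
    LinearMap.injective_iff_surjective.2 (LinearMap.range_eq_top.1 htop)
  have hfix : ∀ v, S v = v → v = 0 := by
    intro v hv
    apply hinj
    rw [map_zero, LinearMap.sub_apply, hv, Module.End.one_apply, sub_self]
  have hpow : ∀ m : ℕ, ∀ v, T v = v → (T ^ m) v = v := by
    intro m v hv
    induction m with
    | zero => simp
    | succ m ih => rw [pow_succ, Module.End.mul_apply, hv, ih]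
  refine ⟨fun v hv => hfix v (hpow _ v hv), fun U hU => ?_⟩
  have hUS : ∀ m : ℕ, ∀ u ∈ U, (T ^ m) u ∈ U := by
    intro m
    induction m with
    | zero => intro u hu; simpa using hu
    | succ m ih =>
      intro u hu
      rw [pow_succ, Module.End.mul_apply]
      exact ih _ (hU u hu)
  have hdv := Cfsg.Agent.H538.GlCyc.dvd_finrank_sub hSp U (hUS _) (fun v _ => hfix v)
  rcases Nat.eq_zero_or_pos (finrank K U) with h0 | h0
  · left
    exact Submodule.finrank_eq_zero.1 h0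
  · right
    apply Submodule.eq_top_of_finrank_eq
    refine le_antisymm (Submodule.finrank_le _) ?_
    rw [hd]
    exact Nat.le_of_dvd h0 hdv

theorem irr [Finite K] [FiniteDimensional K V] {p : ℕ} [hp : Fact p.Prime]
    (hpF : (p : K) ≠ 0) {V₁ : Submodule K V} (hd : finrank K V₁ = orderOf ((Nat.card K : ℕ) : ZMod p)) {x : V ≃ₗ[K] V}
    {k : ℕ} (hx : x ^ p ^ k = 1) (hi : ∀ v ∈ V₁, x v ∈ V₁) (hne : ∃ v ∈ V₁, x v ≠ v) :
    (∀ v ∈ V₁, x v = v → v = 0) ∧ ∀ U ≤ V₁, (∀ u ∈ U, x u ∈ U) → U = ⊥ ∨ U = V₁ := by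
  have hpw : ∀ m : ℕ, ∀ v : V₁, (((((x : V ≃ₗ[K] V) : V →ₗ[K] V).restrict hi) ^ m) v : V) = (x ^ m) v := by
    intro m
    induction m with
    | zero => intro v; simp
    | succ m ih =>
      intro v
      rw [pow_succ, Module.End.mul_apply, ih, pow_succ, LinearEquiv.mul_apply]
      rfl
  obtain ⟨h1, h2⟩ := irr_aux (T := ((x : V ≃ₗ[K] V) : V →ₗ[K] V).restrict hi) (k := k) hpF hd (by
    ext v
    rw [hpw, hx]
    rfl) (by
    obtain ⟨v, hv, hne⟩ := hne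
    intro h
    have h3 := LinearMap.congr_fun h ⟨v, hv⟩
    exact hne (congrArg Subtype.val h3))
  refine ⟨fun v hv hfix => ?_, fun U hU hUi => ?_⟩
  · exact congrArg Subtype.val (h1 ⟨v, hv⟩ (Subtype.ext hfix))
  · rcases h2 (U.comap V₁.subtype) (fun u hu => hUi _ hu) with h3 | h3
    · left
      rw [eq_bot_iff]
      intro u hu
      have h4 : (⟨u, hU hu⟩ : V₁) ∈ U.comap V₁.subtype := hu
      rw [h3, Submodule.mem_bot] at h4
      exact congrArg Subtype.val h4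
    · right
      refine le_antisymm hU fun u hu => ?_
      have h4 : (⟨u, hu⟩ : V₁) ∈ U.comap V₁.subtype := by rw [h3]; trivial
      exact h4

section centralizer

variable [FiniteDimensional K V] {x : V ≃ₗ[K] V} {V₀ V₁ V₂ : Submodule K V}

theorem aeval_mem {T : Module.End K V} {U : Submodule K V} (hU : ∀ u ∈ U, T u ∈ U) (f : K[X]) {u : V} (hu : u ∈ U) :
    aeval T f u ∈ U := by
  induction f using Polynomial.induction_on' with
  | add p q hp hq => rw [map_add, LinearMap.add_apply]; exact U.add_mem hp hq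
  | monomial n a =>
    rw [aeval_monomial, Module.End.mul_apply, Module.algebraMap_end_apply]
    refine U.smul_mem _ ?_
    induction n with
    | zero => simpa using hu
    | succ n ih => rw [pow_succ', Module.End.mul_apply]; exact hU _ ih

theorem aeval_comm {T g : Module.End K V} (hg : g * T = T * g) (f : K[X]) (v : V) : aeval T f (g v) = g (aeval T f v) := by
  have h1 : Commute g (aeval T f) := by
    induction f using Polynomial.induction_on' with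
    | add p q hp hq => rw [map_add]; exact hp.add_right hq
    | monomial n a =>
      rw [aeval_monomial]
      exact (show Commute g (algebraMap K (Module.End K V) a) from (Algebra.commutes a g).symm).mul_right
        (Commute.pow_right hg n)
  have h2 := LinearMap.congr_fun h1 v
  rw [Module.End.mul_apply, Module.End.mul_apply] at h2
  exact h2.symm

/-- an injective endomorphism of a subspace is onto -/
theorem onto_of_inj {T : Module.End K V} {U : Submodule K V} (hU : ∀ u ∈ U, T u ∈ U) (h0 : ∀ u ∈ U, T u = 0 → u = 0)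
    {v : V} (hv : v ∈ U) : ∃ u ∈ U, T u = v := by
  have h1 : Function.Injective (T.restrict hU) := by
    rw [injective_iff_map_eq_zero]
    intro u hu
    exact Subtype.ext (h0 u u.2 (congrArg Subtype.val hu))
  obtain ⟨u, hu⟩ := LinearMap.injective_iff_surjective.1 h1 ⟨v, hv⟩
  exact ⟨u, u.2, congrArg Subtype.val hu⟩

theorem exists_dec (htop : V₀ ⊔ V₁ ⊔ V₂ = ⊤) (v : V) : ∃ v₀ ∈ V₀, ∃ v₁ ∈ V₁, ∃ v₂ ∈ V₂, v = v₀ + v₁ + v₂ := by
  have h1 : v ∈ V₀ ⊔ V₁ ⊔ V₂ := by rw [htop]; trivial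
  obtain ⟨a, ha, v₂, h₂, rfl⟩ := Submodule.mem_sup.1 h1
  obtain ⟨v₀, h₀, v₁, h₁, rfl⟩ := Submodule.mem_sup.1 ha
  exact ⟨v₀, h₀, v₁, h₁, v₂, h₂, rfl⟩

/-- the centralizer of a regular element preserves the three blocks -/
theorem Reg.map_mem (h : Reg x V₀ V₁ V₂) (htop : V₀ ⊔ V₁ ⊔ V₂ = ⊤) (i1 : ∀ v ∈ V₁, x v = v → v = 0)
    (i2 : ∀ v ∈ V₂, x v = v → v = 0) {g : V ≃ₗ[K] V} (hg : g * x = x * g) :
    (∀ v ∈ V₀, g v ∈ V₀) ∧ (∀ v ∈ V₁, g v ∈ V₁) ∧ ∀ v ∈ V₂, g v ∈ V₂ := by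
  obtain ⟨f, hf1, hf2⟩ := h.sep
  have hgx : ∀ v, g (x v) = x (g v) := fun v => by
    have := LinearEquiv.congr_fun hg v
    rwa [LinearEquiv.mul_apply, LinearEquiv.mul_apply] at this
  have hgE : ((g : V ≃ₗ[K] V) : Module.End K V) * ((x : V ≃ₗ[K] V) : Module.End K V) = (x : Module.End K V) * (g : Module.End K V) := by
    ext v
    exact hgx v
  have hdis : ∀ v ∈ V₁, v ∈ V₂ → v = 0 := fun v h1 h2 => hf2 v h2 (hf1 v h1)
  -- the fixed vectors
  have hfix : ∀ v, x v = v → v ∈ V₀ := by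
    intro v hv
    obtain ⟨v₀, h₀, v₁, h₁, v₂, h₂, rfl⟩ := exists_dec htop v
    rw [map_add, map_add, h.fix v₀ h₀] at hv
    have h3 : x v₁ - v₁ = -(x v₂ - v₂) := by
      have h4 : x v₁ + x v₂ = v₁ + v₂ := by
        have : v₀ + (x v₁ + x v₂) = v₀ + (v₁ + v₂) := by rw [← add_assoc, ← add_assoc]; exact hv
        exact add_left_cancel this
      rw [neg_sub, sub_eq_sub_iff_add_eq_add, h4, add_comm]
    have h5 : x v₁ - v₁ = 0 := hdis _ (V₁.sub_mem (h.inv1 _ h₁) h₁) (by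
      rw [h3]
      exact V₂.neg_mem (V₂.sub_mem (h.inv2 _ h₂) h₂))
    have h6 : x v₂ - v₂ = 0 := by
      rw [h5] at h3
      exact neg_eq_zero.1 h3.symm
    rw [i1 v₁ h₁ (sub_eq_zero.1 h5), i2 v₂ h₂ (sub_eq_zero.1 h6), add_zero, add_zero]
    exact h₀
  -- the space `V₁ + V₂`
  have hR : ∀ v, v ∈ V₁ ⊔ V₂ ↔ ∃ u, x u - u = v := by
    intro v
    constructor
    · intro hv
      obtain ⟨v₁, h₁, v₂, h₂, rfl⟩ := Submodule.mem_sup.1 hv
      obtain ⟨u₁, -, hu₁'⟩ := onto_of_inj (T := (x : Module.End K V) - 1) (U := V₁)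
        (fun u hu => V₁.sub_mem (h.inv1 u hu) hu) (fun u hu hu0 => i1 u hu (sub_eq_zero.1 hu0)) h₁
      obtain ⟨u₂, -, hu₂'⟩ := onto_of_inj (T := (x : Module.End K V) - 1) (U := V₂)
        (fun u hu => V₂.sub_mem (h.inv2 u hu) hu) (fun u hu hu0 => i2 u hu (sub_eq_zero.1 hu0)) h₂
      refine ⟨u₁ + u₂, ?_⟩
      have e1 : x u₁ - u₁ = v₁ := hu₁'
      have e2 : x u₂ - u₂ = v₂ := hu₂'
      rw [map_add, ← e1, ← e2]
      abel
    · rintro ⟨u, rfl⟩
      obtain ⟨v₀, h₀, v₁, h₁, v₂, h₂, rfl⟩ := exists_dec htop u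
      have e : x (v₀ + v₁ + v₂) - (v₀ + v₁ + v₂) = (x v₁ - v₁) + (x v₂ - v₂) := by
        rw [map_add, map_add, h.fix v₀ h₀]
        abel
      rw [e]
      exact Submodule.add_mem_sup (V₁.sub_mem (h.inv1 _ h₁) h₁) (V₂.sub_mem (h.inv2 _ h₂) h₂)
  have hgR : ∀ v ∈ V₁ ⊔ V₂, g v ∈ V₁ ⊔ V₂ := by
    intro v hv
    obtain ⟨u, rfl⟩ := (hR v).1 hv
    exact (hR _).2 ⟨g u, by rw [map_sub, hgx]⟩
  refine ⟨fun v hv => hfix _ ?_, fun v hv => ?_, fun v hv => ?_⟩
  · rw [← hgx, h.fix v hv]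
  · obtain ⟨a, ha, b, hb, hab⟩ := Submodule.mem_sup.1 (hgR v (Submodule.mem_sup_left hv))
    have h3 : aeval (x : Module.End K V) f (g v) = 0 := by
      rw [show (g v : V) = (g : Module.End K V) v from rfl, aeval_comm hgE, hf1 v hv, map_zero]
    rw [← hab, map_add, hf1 a ha, zero_add] at h3
    rw [← hab, hf2 b hb h3, add_zero]
    exact ha
  · obtain ⟨u, hu, hu'⟩ := onto_of_inj (T := aeval (x : Module.End K V) f) (U := V₂)
      (fun u hu => aeval_mem (T := (x : Module.End K V)) h.inv2 f hu) hf2 hv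
    obtain ⟨a, ha, b, hb, hab⟩ := Submodule.mem_sup.1 (hgR u (Submodule.mem_sup_right hu))
    have h3 : g v = aeval (x : Module.End K V) f b := by
      rw [← hu', show (g (aeval (x : Module.End K V) f u) : V) = (g : Module.End K V) (aeval (x : Module.End K V) f u) from rfl,
        ← aeval_comm hgE, show ((g : Module.End K V) u : V) = g u from rfl, ← hab, map_add, hf1 a ha, zero_add]
    rw [h3]
    exact aeval_mem (T := (x : Module.End K V)) h.inv2 f hb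

/-- the centralizer of `x` is commutative on an irreducible block -/
theorem comm_on {V₁ : Submodule K V} {x : V ≃ₗ[K] V} (hi : ∀ v ∈ V₁, x v ∈ V₁)
    (hirr : ∀ U ≤ V₁, (∀ u ∈ U, x u ∈ U) → U = ⊥ ∨ U = V₁) {g k : V ≃ₗ[K] V} (hg : g * x = x * g) (hk : k * x = x * k)
    (hgV : ∀ v ∈ V₁, g v ∈ V₁) (hkV : ∀ v ∈ V₁, k v ∈ V₁) {v : V} (hv : v ∈ V₁) : g (k v) = k (g v) := by
  rcases eq_or_ne v 0 with rfl | hv0
  · simp
  have hE : ∀ {g : V ≃ₗ[K] V}, g * x = x * g → ((g : V ≃ₗ[K] V) : Module.End K V) * ((x : V ≃ₗ[K] V) : Module.End K V) =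
      (x : Module.End K V) * (g : Module.End K V) := by
    intro g hg
    ext v
    exact LinearEquiv.congr_fun hg v
  let U : Submodule K V :=
    { carrier := {u | ∃ f : K[X], u = aeval (x : Module.End K V) f v}
      add_mem' := by
        rintro a b ⟨f, rfl⟩ ⟨g, rfl⟩
        exact ⟨f + g, by rw [map_add, LinearMap.add_apply]⟩
      zero_mem' := ⟨0, by rw [map_zero, LinearMap.zero_apply]⟩
      smul_mem' := by
        rintro c a ⟨f, rfl⟩
        exact ⟨c • f, by rw [map_smul, LinearMap.smul_apply]⟩ }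
  have hU : U = V₁ := by
    rcases hirr U (by rintro u ⟨f, rfl⟩; exact aeval_mem (T := (x : Module.End K V)) hi f hv) (by
      rintro u ⟨f, rfl⟩
      exact ⟨X * f, by rw [map_mul, aeval_X, Module.End.mul_apply]; rfl⟩) with h | h
    · exfalso
      apply hv0
      have h1 : v ∈ U := ⟨1, by rw [map_one, Module.End.one_apply]⟩
      rw [h] at h1
      exact h1
    · exact h
  have h1 : g v ∈ U := by rw [hU]; exact hgV v hv
  have h2 : k v ∈ U := by rw [hU]; exact hkV v hv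
  obtain ⟨a, ha⟩ := h1
  obtain ⟨b, hb⟩ := h2
  rw [ha, hb, show (g (aeval (x : Module.End K V) b v) : V) = (g : Module.End K V) (aeval (x : Module.End K V) b v) from rfl,
    ← aeval_comm (hE hg), show ((g : Module.End K V) v : V) = g v from rfl, ha,
    show (k (aeval (x : Module.End K V) a v) : V) = (k : Module.End K V) (aeval (x : Module.End K V) a v) from rfl,
    ← aeval_comm (hE hk), show ((k : Module.End K V) v : V) = k v from rfl, hb, ← Module.End.mul_apply, ← Module.End.mul_apply,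
    ← map_mul, ← map_mul, mul_comm]

/-- an `x`-invariant subspace which does not contain `V₁` or `V₂` is in `V₀` -/
theorem Reg.le_fix (h : Reg x V₀ V₁ V₂) (htop : V₀ ⊔ V₁ ⊔ V₂ = ⊤) (i1 : ∀ v ∈ V₁, x v = v → v = 0)
    (i2 : ∀ v ∈ V₂, x v = v → v = 0) (hirr1 : ∀ U ≤ V₁, (∀ u ∈ U, x u ∈ U) → U = ⊥ ∨ U = V₁)
    (hirr2 : ∀ U ≤ V₂, (∀ u ∈ U, x u ∈ U) → U = ⊥ ∨ U = V₂) {W : Submodule K V} (hW : ∀ w ∈ W, x w ∈ W)
    (hW1 : ¬ V₁ ≤ W) (hW2 : ¬ V₂ ≤ W) : W ≤ V₀ := by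
  obtain ⟨f, hf1, hf2⟩ := h.sep
  have h1 : W ⊓ V₁ = ⊥ := by
    rcases hirr1 (W ⊓ V₁) inf_le_right (fun u hu => ⟨hW u hu.1, h.inv1 u hu.2⟩) with h1 | h1
    · exact h1
    · exact absurd (h1 ▸ inf_le_left) hW1
  have h2 : W ⊓ V₂ = ⊥ := by
    rcases hirr2 (W ⊓ V₂) inf_le_right (fun u hu => ⟨hW u hu.1, h.inv2 u hu.2⟩) with h1 | h1
    · exact h1
    · exact absurd (h1 ▸ inf_le_left) hW2
  intro w hw
  obtain ⟨v₀, h₀, v₁, h₁, v₂, h₂, rfl⟩ := exists_dec htop w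
  have h3 : (x v₁ - v₁) + (x v₂ - v₂) ∈ W := by
    have e : (x v₁ - v₁) + (x v₂ - v₂) = x (v₀ + v₁ + v₂) - (v₀ + v₁ + v₂) := by
      rw [map_add, map_add, h.fix v₀ h₀]
      abel
    rw [e]
    exact W.sub_mem (hW _ hw) hw
  have h4 : aeval (x : Module.End K V) f (x v₂ - v₂) ∈ W ⊓ V₂ := by
    refine ⟨?_, aeval_mem (T := (x : Module.End K V)) h.inv2 f (V₂.sub_mem (h.inv2 _ h₂) h₂)⟩
    have h5 := aeval_mem (T := (x : Module.End K V)) (U := W) hW f h3
    rwa [map_add, hf1 _ (V₁.sub_mem (h.inv1 _ h₁) h₁), zero_add] at h5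
  rw [h2, Submodule.mem_bot] at h4
  have h5 : v₂ = 0 := i2 v₂ h₂ (sub_eq_zero.1 (hf2 _ (V₂.sub_mem (h.inv2 _ h₂) h₂) h4))
  subst h5
  rw [map_zero, sub_zero, add_zero] at h3
  have h6 : x v₁ - v₁ ∈ W ⊓ V₁ := ⟨h3, V₁.sub_mem (h.inv1 _ h₁) h₁⟩
  rw [h1, Submodule.mem_bot] at h6
  rw [i1 v₁ h₁ (sub_eq_zero.1 h6), add_zero, add_zero]
  exact h₀

theorem Reg.finrank_add (h : Reg x V₀ V₁ V₂) (htop : V₀ ⊔ V₁ ⊔ V₂ = ⊤) (i1 : ∀ v ∈ V₁, x v = v → v = 0)
    (i2 : ∀ v ∈ V₂, x v = v → v = 0) : finrank K V₀ + finrank K V₁ + finrank K V₂ = finrank K V := by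
  obtain ⟨f, hf1, hf2⟩ := h.sep
  have hdis : ∀ v ∈ V₁, v ∈ V₂ → v = 0 := fun v h1 h2 => hf2 v h2 (hf1 v h1)
  have h1 : V₀ ⊓ V₁ = ⊥ := by
    rw [eq_bot_iff]
    rintro v ⟨hv0, hv1⟩
    exact i1 v hv1 (h.fix v hv0)
  have h2 : (V₀ ⊔ V₁) ⊓ V₂ = ⊥ := by
    rw [eq_bot_iff]
    rintro v ⟨hv0, hv2⟩
    obtain ⟨a, ha, b, hb, rfl⟩ := Submodule.mem_sup.1 hv0
    have h3 : x (a + b) - (a + b) = x b - b := by
      rw [map_add, h.fix a ha]
      abel
    have h4 : x b - b = 0 := hdis _ (V₁.sub_mem (h.inv1 b hb) hb) (by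
      rw [← h3]
      exact V₂.sub_mem (h.inv2 _ hv2) hv2)
    have h5 : b = 0 := i1 b hb (sub_eq_zero.1 h4)
    subst h5
    rw [add_zero] at hv2 ⊢
    exact i2 a hv2 (h.fix a ha)
  have h3 := Submodule.finrank_sup_add_finrank_inf_eq V₀ V₁
  have h4 := Submodule.finrank_sup_add_finrank_inf_eq (V₀ ⊔ V₁) V₂
  rw [h1, finrank_bot, add_zero] at h3
  rw [h2, finrank_bot, add_zero, htop, finrank_top] at h4
  rw [← h3, ← h4]

theorem exists_pow_eq {A : Type*} [Group A] {p : ℕ} (hp : p.Prime) {x s : A} {k : ℕ} (hx : x ^ p ^ k = 1) (hxs : x * s = s * x)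
    (hs : ¬ p ∣ orderOf s) : ∃ m, (x * s) ^ m = x := by
  have hc : Nat.Coprime (p ^ k) (orderOf s) := Nat.Coprime.pow_left k ((Nat.Prime.coprime_iff_not_dvd hp).2 hs)
  obtain ⟨m, hm1, hm2⟩ := Nat.chineseRemainder hc 1 0
  refine ⟨m, ?_⟩
  rw [(show Commute x s from hxs).mul_pow]
  have h1 : x ^ m = x := by
    have h2 : x ^ m = x ^ 1 := pow_eq_pow_iff_modEq.2 (hm1.of_dvd (orderOf_dvd_of_pow_eq_one hx))
    rwa [pow_one] at h2
  have h2 : s ^ m = 1 := orderOf_dvd_iff_pow_eq_one.1 ((Nat.modEq_zero_iff_dvd).1 hm2)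
  rw [h1, h2, mul_one]

end centralizer

open Cfsg.Agent.H477.HC

/-- **no totally singular subspace of dimension `e` is invariant under an element with regular `p`-part `x`** -/
theorem Reg.no_ts [Finite K] [FiniteDimensional K V] (F : CForm K V) {p : ℕ} [hp : Fact p.Prime] (hpF : (p : K) ≠ 0)
    {x : V ≃ₗ[K] V} {V₀ V₁ V₂ : Submodule K V} (h : Reg x V₀ V₁ V₂) (htop : V₀ ⊔ V₁ ⊔ V₂ = ⊤) {k : ℕ}
    (hx : x ^ p ^ k = 1) (hd1 : finrank K V₁ = orderOf ((Nat.card K : ℕ) : ZMod p))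
    (hd2 : finrank K V₂ = orderOf ((Nat.card K : ℕ) : ZMod p))
    (hd : finrank K V < 3 * orderOf ((Nat.card K : ℕ) : ZMod p))
    (nd1 : ∃ u ∈ V₁, ∃ v ∈ V₁, F.B u v ≠ 0) (nd2 : ∃ u ∈ V₂, ∃ v ∈ V₂, F.B u v ≠ 0) {s : V ≃ₗ[K] V}
    (hs : x * s = s * x) (hsp : ¬ p ∣ orderOf s) {W : Submodule K V} (hW : F.TS W)
    (hWd : finrank K W = orderOf ((Nat.card K : ℕ) : ZMod p)) (hWs : ∀ w ∈ W, x (s w) ∈ W) : False := by
  obtain ⟨i1, j1⟩ := irr hpF hd1 hx h.inv1 h.ne1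
  obtain ⟨i2, j2⟩ := irr hpF hd2 hx h.inv2 h.ne2
  have hWx : ∀ w ∈ W, x w ∈ W := by
    obtain ⟨m, hm⟩ := exists_pow_eq hp.out hx hs hsp
    have h1 : ∀ n : ℕ, ∀ w ∈ W, ((x * s) ^ n) w ∈ W := by
      intro n
      induction n with
      | zero => intro w hw; exact hw
      | succ n ih =>
        intro w hw
        rw [pow_succ, LinearEquiv.mul_apply]
        exact ih _ (hWs w hw)
    intro w hw
    have h2 := h1 m w hw
    rwa [hm] at h2
  have hle := h.le_fix htop i1 i2 j1 j2 hWx (by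
    intro h1
    obtain ⟨u, hu, v, hv, huv⟩ := nd1
    exact huv (hW.2 u (h1 hu) v (h1 hv))) (by
    intro h1
    obtain ⟨u, hu, v, hv, huv⟩ := nd2
    exact huv (hW.2 u (h1 hu) v (h1 hv)))
  have h1 := h.finrank_add htop i1 i2
  have h2 := Submodule.finrank_mono hle
  omega

/-- the same in the isometry group -/
theorem Reg.no_ts_iso [Finite K] [FiniteDimensional K V] (F : CForm K V) {p : ℕ} [hp : Fact p.Prime] (hpF : (p : K) ≠ 0)
    {x : F.iso} {V₀ V₁ V₂ : Submodule K V} (h : Reg (x : V ≃ₗ[K] V) V₀ V₁ V₂) (htop : V₀ ⊔ V₁ ⊔ V₂ = ⊤) {k : ℕ}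
    (hx : x ^ p ^ k = 1) (hd1 : finrank K V₁ = orderOf ((Nat.card K : ℕ) : ZMod p))
    (hd2 : finrank K V₂ = orderOf ((Nat.card K : ℕ) : ZMod p))
    (hd : finrank K V < 3 * orderOf ((Nat.card K : ℕ) : ZMod p))
    (nd1 : ∃ u ∈ V₁, ∃ v ∈ V₁, F.B u v ≠ 0) (nd2 : ∃ u ∈ V₂, ∃ v ∈ V₂, F.B u v ≠ 0) {s : F.iso}
    (hs : x * s = s * x) (hsp : ¬ p ∣ orderOf s) {W : Submodule K V} (hW : F.TS W)
    (hWd : finrank K W = orderOf ((Nat.card K : ℕ) : ZMod p))
    (hWs : W.map (((x * s : F.iso) : V ≃ₗ[K] V) : V →ₗ[K] V) = W) : False := by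
  refine h.no_ts F hpF htop (k := k) ?_ hd1 hd2 hd nd1 nd2 (s := (s : V ≃ₗ[K] V)) ?_ ?_ hW hWd fun w hw => ?_
  · have h1 := congrArg Subtype.val hx
    simpa using h1
  · have h1 := congrArg Subtype.val hs
    simpa using h1
  · rwa [Subgroup.orderOf_coe]
  · rw [← hWs]
    exact ⟨w, hw, rfl⟩

end Cfsg.Agent.H168.HT
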